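import Mathlib
import Cfsg.Agent.H42.FvDefs

/-! Piece DIV of project FV: rational points of a stable unipotent subgroup. -/

set_option autoImplicit false

namespace Cfsg.Agent.H82.FvDiv

open Equiv Cfsg.Lie H37 H40 H34 H29 Module H50.E83 Cfsg.Agent.H42.Fv
open scoped Matrix

theorem finG0 : Finite G0 := inferInstance

theorem div (cb : CardBStmt) (fr : FrobStmt) : DivStmt := by
  intro H g n hn hg A hA hC hν h7 hH
  haveI := finG0
  haveI : Fact (Nat.Prime 3) := ⟨Nat.prime_three⟩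
  have hex : ∀ u : ↥(P8.U A ⊓ H75.EX.fixE (sg n)), ∃ m : G0, ι m = g * u.1 * g⁻¹ := by
    intro u
    have h1 : sg n u.1 = u.1 := u.2.2
    rw [sg_apply] at h1
    have h2 : Ph g = g * n := by rw [← hg, mul_inv_cancel_left]
    have h3 : Ph (g * u.1 * g⁻¹) = g * u.1 * g⁻¹ := by
      rw [map_mul, map_mul, map_inv, h2]
      conv_rhs => rw [← h1]
      group
    exact (fr.2.1 _).1 h3
  choose f hf using hex
  have hm : ∀ u, f u ∈ rat g (P8.U A) := fun u => by
    rw [mem_rat, hf]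
    have : g⁻¹ * (g * u.1 * g⁻¹) * g = u.1 := by group
    rw [this]; exact u.2.1
  have hinj : Function.Injective fun u => (⟨f u, hm u⟩ : rat g (P8.U A)) := by
    intro u u' h
    have h1 : f u = f u' := congrArg Subtype.val h
    have h2 := hf u
    rw [h1, hf u'] at h2
    exact Subtype.ext (mul_left_cancel (mul_right_cancel h2)).symm
  have hle := (cb n hn A hA hC hν).trans (Nat.card_le_card_of_injective _ hinj)
  have hp : IsPGroup 3 (rat g (P8.U A)) := by
    intro m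
    have h1 : g⁻¹ * ι m.1 * g ∈ P8.Up := by
      rw [H42.Fv.Up_eq]; exact Split.U_mono hA m.2
    obtain ⟨l, hl⟩ := H73.isPGroup_pow (r := 3) h1
    refine ⟨l, Subtype.ext (ι_injective ?_)⟩
    have h2 : (g⁻¹ * ι m.1 * g) ^ 3 ^ l = g⁻¹ * ι m.1 ^ 3 ^ l * g := by
      have := conj_pow (a := g⁻¹) (b := ι m.1) (i := 3 ^ l)
      rwa [inv_inv] at this
    rw [h2] at hl
    rw [Subgroup.coe_pow, map_pow, Subgroup.coe_one, map_one]
    calc ι m.1 ^ 3 ^ l = g * (g⁻¹ * ι m.1 ^ 3 ^ l * g) * g⁻¹ := by group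
      _ = 1 := by rw [hl]; group
  obtain ⟨j, hj⟩ := IsPGroup.iff_card.1 hp
  rw [hj] at hle
  have hj7 : 7 ≤ j := h7.trans ((Nat.pow_le_pow_iff_right (by norm_num)).1 hle)
  exact (pow_dvd_pow 3 hj7).trans (hj ▸ Subgroup.card_dvd_of_le hH)

end Cfsg.Agent.H82.FvDiv
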