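import Mathlib
import Cfsg.Agent.H49.BN2Kit

/-!
# Quadrangles: central elations exist, or the groups `V x y` are regular
-/

set_option autoImplicit false

namespace Cfsg.Agent.H82.BnCe4

open Cfsg.Agent.H49.BN2 Cfsg.Agent.H49.BN2.Sys

universe u

variable {p : ℕ} {X G : Type u} [Group G] [MulAction G X] {S : Sys 4 p X G}

theorem fixQ {k : ℕ} {x : X} {g : G} (h : g ∈ S.Q k x) : g ∈ S.fixB k x := h.2

section

variable (b2 : S.Bas) (zt : S.Zt) (t1 : S.T1) (nc : ∀ x, ∀ g ∈ S.Q 2 x, g = 1)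

include zt in
theorem zq {x y : X} (h : S.d x y = 1) {z : G} (hz : z ∈ S.Z x y) : z ∈ S.Q 1 x := zt x y h hz

include b2 zt in
theorem zq' {x y : X} (h : S.d x y = 1) {z : G} (hz : z ∈ S.Z x y) : z ∈ S.Q 1 y :=
  zt y x (sy h) (b2.Z_symm x y ▸ hz)

include b2 in
theorem zc {x y : X} (h : S.d x y = 1) {z g : G} (hz : z ∈ S.Z x y) (hg : g ∈ S.Q 1 y) :
    g * z = z * g :=
  Z_cent hz (S.V_symm y x ▸ b2.Q_le 1 y x (sy h) hg)

include b2 zt nc in
theorem semi {y L v : X} (h : S.d y L = 1) (h3 : S.d y v = 3) (h2 : S.d L v = 2) {z : G}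
    (hz : z ∈ S.Z y L) (hv : z • v = v) : z = 1 := by
  refine nc L z (b2.mem_Q 2 L y (by norm_num) (sy h) z (S.V_symm y L ▸ hz.1) fun w hw => ?_)
  rcases Nat.lt_or_ge (S.d L w) 2 with h4 | h4
  · exact fixQ (zq' b2 zt h hz) w (by omega)
  · rcases S.step L y w (sy h) with h5 | h5
    · exact b2.Z_all y L v w 2 h h3 h2 (by omega) (by omega) z hz hv
    · exact fixQ (zq zt h hz) w (by omega)

include b2 t1 nc in
/-- An element of `Q_P ⊓ Q_L ⊓ Q_R` commuting with `Q_L` is trivial. -/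
theorem triv {L P R : X} (hP : S.d L P = 1) (hR : S.d L R = 1) (hne : P ≠ R) {m : G}
    (mP : m ∈ S.Q 1 P) (mL : m ∈ S.Q 1 L) (mR : m ∈ S.Q 1 R)
    (mc : ∀ g ∈ S.Q 1 L, g * m = m * g) : m = 1 := by
  obtain ⟨M, hM, hML, -⟩ := S.thick P L L
  have key : ∀ t ∈ S.Q 1 P ⊓ S.Q 1 M, t * m = m * t := fun t ht => by
    have tL : t • L = L := fixQ ht.1 L (sy hP).le
    have mM : m • M = M := fixQ mP M hM.le
    have mP' : m • P = P := fix_self (fixQ mP)
    have kM : t * m * t⁻¹ * m⁻¹ ∈ S.Q 1 M := by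
      have := b2.Q_conj 1 M m _ (inv_mem ht.2)
      rw [mM] at this
      have e : t * m * t⁻¹ * m⁻¹ = t * (m * t⁻¹ * m⁻¹) := by group
      rw [e]
      exact mul_mem ht.2 this
    have kP : t * m * t⁻¹ * m⁻¹ ∈ S.Q 1 P :=
      mul_mem (mul_mem (mul_mem ht.1 mP) (inv_mem ht.1)) (inv_mem mP)
    have kL : t * m * t⁻¹ * m⁻¹ ∈ S.Q 1 L := by
      have := b2.Q_conj 1 L t _ mL
      rw [tL] at this
      exact mul_mem this (inv_mem mL)
    have kc : ∀ g ∈ S.Q 1 L, g * (t * m * t⁻¹ * m⁻¹) = t * m * t⁻¹ * m⁻¹ * g := fun g hg => by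
      have h1 := b2.Q_conj 1 L t⁻¹ _ hg
      rw [inv_smul_eq_iff.2 tL.symm] at h1
      have h2 := mc _ h1
      have h3 := mc _ hg
      calc g * (t * m * t⁻¹ * m⁻¹) = t * (t⁻¹ * g * t⁻¹⁻¹ * m) * t⁻¹ * m⁻¹ := by group
        _ = t * m * t⁻¹ * (g * m⁻¹) := by rw [h2]; group
        _ = t * m * t⁻¹ * (m⁻¹ * (m * g) * m⁻¹) := by group
        _ = _ := by rw [← h3]; group
    have k1 : t * m * t⁻¹ * m⁻¹ = 1 := by
      refine nc P _ (b2.mem_Q 2 P L (by norm_num) (sy hP) _ (b2.Q_le 1 P L (sy hP) kP)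
        (fixB_succ (fix_self (fixQ kP)) fun y hy => ?_))
      by_cases hy' : y = L
      · exact hy' ▸ fixQ kL
      · obtain ⟨g, hg, rfl⟩ := t2 t1 (k := 1) hP (by norm_num) (two (sy hP) hM hML.symm) hM
          (two (sy hP) hy (Ne.symm hy')) hy
        exact trick b2 (fixQ kM) (kc g hg)
    calc t * m = t * m * t⁻¹ * m⁻¹ * (m * t) := by group
      _ = _ := by rw [k1, one_mul]
  refine nc L _ (b2.mem_Q 2 L P (by norm_num) hP _ (b2.Q_le 1 L P hP mL)
    (fixB_succ (fix_self (fixQ mL)) fun y hy => ?_))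
  by_cases hy' : y = P
  · exact hy' ▸ fixQ mP
  · obtain ⟨g, hg, rfl⟩ := t1 P M L R y 1 hM (sy hP) hML.symm (by norm_num) (two hP hR hne) hR
      (two hP hy (Ne.symm hy')) hy
    exact trick b2 (fixQ mR) (key g hg)

include b2 zt t1 nc in
theorem exc {L P R y : X} (hP : S.d L P = 1) (hR : S.d L R = 1) (hne : P ≠ R) {g : G}
    (hg : g ∈ S.Z R L) (hg1 : g ≠ 1) (hy : S.d L y = 1) (hyP : y ≠ P) :
    ∃ c ∈ S.Z P L, c * g ∈ S.Z y L ∧ c * g ≠ 1 := by
  by_cases hyR : y = R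
  · exact ⟨1, one_mem _, by rwa [one_mul, hyR], by rwa [one_mul]⟩
  obtain ⟨q, hq, hqR⟩ := t2 t1 (k := 1) (sy hP) (by norm_num) (two hP hR hne) hR
    (two hP hy hyP.symm) hy
  obtain ⟨q', hq', hqy⟩ := t2 t1 (k := 1) (sy hR) (by norm_num) (two hR hy (Ne.symm hyR)) hy
    (two hR hP hne.symm) hP
  have hgy := b2.Z_conj R L q (sy hR) g hg
  rw [hqR, fixQ hq L (sy hP).le] at hgy
  have hc := b2.Z_conj y L q' (sy hy) _ hgy
  rw [hqy, fixQ hq' L (sy hR).le] at hc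
  set a := q * g * q⁻¹ with ha
  set c := q' * a * q'⁻¹ with hcd
  have gL := zq' b2 zt (sy hR) hg
  have aL := zq' b2 zt (sy hy) hgy
  have cL := zq' b2 zt (sy hP) hc
  have hm : a * g⁻¹ * c⁻¹ = 1 := by
    refine triv b2 t1 nc hP hR hne (mul_mem ?_ (inv_mem (zq zt (sy hP) hc)))
      (mul_mem (mul_mem aL (inv_mem gL)) (inv_mem cL)) ?_ fun s hs => ?_
    · have := b2.Q_conj 1 P g _ (inv_mem hq)
      rw [fixQ gL P hP.le] at this
      have e : a * g⁻¹ = q * (g * q⁻¹ * g⁻¹) := by rw [ha]; group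
      rw [e]
      exact mul_mem hq this
    · have := b2.Q_conj 1 R a _ hq'
      rw [fixQ aL R hR.le] at this
      have e : a * g⁻¹ * c⁻¹ = g⁻¹ * (a * q' * a⁻¹ * q'⁻¹) := by
        rw [zc b2 (sy hR) (inv_mem hg) aL, hcd]; group
      rw [e]
      exact mul_mem (inv_mem (zq zt (sy hR) hg)) (mul_mem this (inv_mem hq'))
    · have h1 : Commute s a := zc b2 (sy hy) hgy hs
      have h2 : Commute s g⁻¹ := zc b2 (sy hR) (inv_mem hg) hs
      have h3 : Commute s c⁻¹ := zc b2 (sy hP) (inv_mem hc) hs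
      exact ((h1.mul_right h2).mul_right h3).eq
  have e : c * g = a := by
    calc c * g = a * g⁻¹ * c⁻¹ * (c * g) := by rw [hm, one_mul]
      _ = a := by group
  refine ⟨c, hc, e ▸ hgy, fun h => hg1 ?_⟩
  rw [e, ha] at h
  calc g = q⁻¹ * (q * g * q⁻¹) * q := by group
    _ = 1 := by rw [h]; group

include b2 zt t1 nc in
theorem q_le [Finite G] (b1 : S.toPol.Bas) {L P : X} (hP : S.d L P = 1) :
    S.toPol.q L ≤ Nat.card (S.Z P L) := by
  obtain ⟨R, hR, hne, -⟩ := S.thick L P P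
  obtain ⟨g, hg, hg1⟩ := b2.Z_ne R L (sy hR)
  rw [← b1.card_nb L P hP]
  have H : ∀ y : ↥(S.toPol.nb L \ {P}), ∃ c ∈ S.Z P L, c * g ∈ S.Z y L ∧ c * g ≠ 1 := fun y =>
    exc b2 zt t1 nc hP hR hne.symm hg hg1 y.2.1 y.2.2
  choose c hc using H
  rw [← Nat.card_coe_set_eq]
  refine Nat.card_le_card_of_injective (fun y => (⟨c y, (hc y).1⟩ : S.Z P L)) fun y y' h => ?_
  by_contra hyy
  have hyy' : (y : X) ≠ y' := fun h => hyy (Subtype.ext h)
  have e : c y = c y' := congrArg Subtype.val h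
  have hy : S.d L y = 1 := y.2.1
  have hy' : S.d L y' = 1 := y'.2.1
  obtain ⟨v, hv, hvL, -⟩ := S.thick y' L L
  refine (hc y).2.2 (semi b2 zt nc (sy hy) (v := v) ?_ (two (sy hy') hv hvL.symm) (hc y).2.1 ?_)
  · exact fwd (k := 1) (by norm_num) (two hy hy' hyy') (sy hy) (sy hy') hv hvL
  · rw [e]
    exact fixQ (zq zt (sy hy') (hc y').2.1) v hv.le

include b2 zt t1 nc in
theorem full [Finite X] [Finite G] (b1 : S.toPol.Bas) {R L P M : X} (hR : S.d L R = 1)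
    (hP : S.d L P = 1) (hne : P ≠ R) (hM : S.d P M = 1) (hML : M ≠ L) {δ : G}
    (hδ : δ ∈ S.V R L) (dP : δ • P = P) (dM : δ • M = M) : δ ∈ S.fixB 1 P := by
  refine fix1 dP fun v hv => ?_
  by_cases hvL : v = L
  · rw [hvL]
    exact V_fix' (sy hR) hδ
  have hc : (S.toPol.nb P \ {L}).ncard ≤ (S.Z R L : Set G).ncard := by
    rw [b1.card_nb P L (sy hP), ← Nat.card_coe_set_eq]
    exact (q_le b2 zt t1 nc b1 (sy hP)).trans_eq (b2.card_Z _ _ _ _ hP (sy hR))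
  obtain ⟨z, hz, rfl⟩ := onto hc (fun z => z • M) (fun z hz => by
      have zL := fixQ (zq' b2 zt (sy hR) hz)
      refine ⟨(d_left z (zL P hP.le)).trans hM, fun h => hML ?_⟩
      have h' : z • M = z • L := by rw [fix_self zL]; exact h
      exact smul_left_cancel z h')
    (fun z hz z' hz' h => by
      have : z'⁻¹ * z = 1 := by
        refine semi b2 zt nc (sy hR) (v := M) ?_ (two (sy hP) hM hML.symm)
          (mul_mem (inv_mem hz') hz) ?_
        · exact fwd (k := 1) (by norm_num) (two hR hP hne.symm) (sy hR) (sy hP) hM hML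
        · rw [mul_smul, inv_smul_eq_iff]
          exact h
      exact (inv_mul_eq_one.1 this).symm) (b := v) ⟨hv, hvL⟩
  exact comm_smul (Z_cent hz hδ) dM

end

/-- **CE4** -/
theorem ce4 : Ce4Stmt.{u} := by
  intro n p X G _ _ _ _ S _ b1 b2 hn zt t1
  subst hn
  by_cases hc : ∃ x, S.Cen x
  · exact Or.inl hc
  have nc : ∀ x, ∀ g ∈ S.Q 2 x, g = 1 := fun x g hg => by
    by_contra h
    exact hc ⟨x, g, hg, h⟩
  refine Or.inr fun x y u v ho δ hδ hu hv => ?_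
  have hx : δ • x = x := S.V_fix x y ho.1 δ hδ
  have hy : δ • y = y := V_fix' ho.1 hδ
  have hF := b2.conv {δ}
  have hO : S.toPol.HasOpp {w | ∀ g ∈ ({δ} : Set G), g • w = w} :=
    ⟨x, by simpa using hx, y, by simpa using hy, u, by simpa using hu, v, by simpa using hv, ho⟩
  obtain ⟨M, fM, hM, hMy⟩ := b1.fix2 _ hF hO x (by simpa using hx) y
  obtain ⟨R, fR, hR, hRx⟩ := b1.fix2 _ hF hO y (by simpa using hy) x
  have dM : δ • M = M := fM δ rfl
  have dR : δ • R = R := fR δ rfl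
  refine b2.rig δ x y u v x y ho hx hy hu hv ho.1 ?_ ?_
  · exact full b2 zt t1 nc b1 hR (sy ho.1) hRx.symm hM hMy
      (b2.uni x y R y ho.1 (sy hR) δ hδ dR hy) hx dM
  · exact full b2 zt t1 nc b1 hM ho.1 hMy.symm hR hRx
      (b2.uni x y M x ho.1 (sy hM) δ hδ dM hx) hy dR

end Cfsg.Agent.H82.BnCe4
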