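import Mathlib
import Cfsg.Agent.H2.FXDefs

/-! Piece SUB of project FX: the Brauer character summed over a `3'`-subgroup. -/

set_option autoImplicit false

namespace Cfsg.Agent.H82.FXSub

open Module Cfsg.Agent.H50.E83 Cfsg.Agent.H2FX
open scoped Matrix MatrixGroups

universe u

theorem cast_ne {N : ℕ} (hN : ¬ 3 ∣ N) : (N : K) ≠ 0 := fun h =>
  hN ((CharP.cast_eq_zero_iff K 3 N).1 h)

theorem range_eq (a : ZG) (N : ℕ) (hN : ¬ 3 ∣ N) (W : Submodule K V)
    (h1 : ∀ v, rep a v ∈ W) (h2 : ∀ v ∈ W, rep a v = (N : K) • v) :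
    LinearMap.range (rep a) = W := by
  apply le_antisymm
  · rintro _ ⟨v, rfl⟩
    exact h1 v
  · intro v hv
    refine ⟨(N : K)⁻¹ • v, ?_⟩
    rw [map_smul, h2 v hv, smul_smul, inv_mul_cancel₀ (cast_ne hN), one_smul]

theorem finrank_V : finrank K V = 248 := by
  rw [Module.finrank_fintype_fun_eq_card]
  rfl

theorem part1 (L : ZG →+ ℂ) (h : IsBr L) : L 1 = 248 := by
  have h1 := h.rk 1 1 (by norm_num) (by simp)
  rw [map_one rep] at h1
  have h2 : LinearMap.range (1 : Module.End K V) = ⊤ :=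
    LinearMap.range_eq_top.2 fun v => ⟨v, rfl⟩
  rw [h2, finrank_top, finrank_V] at h1
  rw [h1]; norm_num

theorem shift {A : Type*} [Ring A] (x : A) (n : ℕ) (hx : x ^ n = 1) :
    x * ∑ i ∈ Finset.range n, x ^ i = ∑ i ∈ Finset.range n, x ^ i := by
  have h := mul_geom_sum x n
  rw [hx, sub_self, sub_mul, one_mul, sub_eq_zero] at h
  exact h

theorem shift_pow {A : Type*} [Ring A] (x : A) (n : ℕ) (hx : x ^ n = 1) (k : ℕ) :
    x ^ k * ∑ i ∈ Finset.range n, x ^ i = ∑ i ∈ Finset.range n, x ^ i := by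
  induction k with
  | zero => simp
  | succ k ih => rw [pow_succ, mul_assoc, shift x n hx, ih]

theorem part2 (L : ZG →+ ℂ) (h : IsBr L) (g : G0) (n : ℕ) (hg : g ^ n = 1) (hn : ¬ 3 ∣ n) :
    L (∑ i ∈ Finset.range n, og g ^ i) = n * (mu (ι g) 1 : ℕ) := by
  have hx : og g ^ n = 1 := by rw [← map_pow, hg, map_one]
  set a : ZG := ∑ i ∈ Finset.range n, og g ^ i with ha
  have haa : a * a = (n : ZG) * a := by
    conv_lhs => rw [ha, Finset.sum_mul]
    rw [Finset.sum_congr rfl fun i _ => shift_pow (og g) n hx i, Finset.sum_const,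
      Finset.card_range, nsmul_eq_mul]
  have hr : LinearMap.range (rep a) = eig (ι g) 1 := by
    refine range_eq a n hn _ (fun v => ?_) (fun v hv => ?_)
    · rw [mem_eig, one_smul, ← rep_og, ← Module.End.mul_apply, ← map_mul, shift _ n hx]
    · rw [mem_eig, one_smul, ← rep_og] at hv
      have hp : ∀ i : ℕ, (rep (og g ^ i)) v = v := by
        intro i
        induction i with
        | zero => rw [pow_zero, map_one]; rfl
        | succ i ih => rw [pow_succ, map_mul, Module.End.mul_apply, hv, ih]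
      rw [ha, map_sum, LinearMap.sum_apply, Finset.sum_congr rfl fun i _ => hp i,
        Finset.sum_const, Finset.card_range, Nat.cast_smul_eq_nsmul]
  have h1 := h.rk n a hn haa
  rw [hr] at h1
  exact h1

theorem part3 (L : ZG →+ ℂ) (h : IsBr L) (Γ : Type u) [Group Γ] [Fintype Γ] (ψ : Γ →* G0)
    (hn : ¬ 3 ∣ Fintype.card Γ) : ∑ g, L (og (ψ g)) = (Fintype.card Γ : ℕ) *
      (finrank K (H50.E83.Fix (Set.range fun g => ι (ψ g))) : ℕ) := by
  set a : ZG := ∑ g, og (ψ g) with ha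
  have hs : ∀ x : Γ, og (ψ x) * a = a := by
    intro x
    rw [ha, Finset.mul_sum]
    refine Fintype.sum_equiv (Equiv.mulLeft x) _ _ fun y => ?_
    rw [Equiv.coe_mulLeft, map_mul, map_mul]
  have haa : a * a = ((Fintype.card Γ : ℕ) : ZG) * a := by
    conv_lhs => rw [ha, Finset.sum_mul]
    rw [Finset.sum_congr rfl fun i _ => hs i, Finset.sum_const, Finset.card_univ, nsmul_eq_mul]
  have hr : LinearMap.range (rep a) = H50.E83.Fix (Set.range fun g => ι (ψ g)) := by
    refine range_eq a _ hn _ (fun v => ?_) (fun v hv => ?_)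
    · rw [mem_Fix]
      rintro _ ⟨x, rfl⟩
      rw [← rep_og, ← Module.End.mul_apply, ← map_mul, hs]
    · rw [mem_Fix] at hv
      have hp : ∀ x : Γ, (rep (og (ψ x))) v = v := fun x => by
        rw [rep_og]; exact hv _ ⟨x, rfl⟩
      rw [ha, map_sum, LinearMap.sum_apply, Finset.sum_congr rfl fun i _ => hp i,
        Finset.sum_const, Finset.card_univ, Nat.cast_smul_eq_nsmul]
  have h1 := h.rk _ a hn haa
  rw [hr, ha, map_sum] at h1
  exact h1

theorem sub : SubStmt.{u} := fun L h =>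
  ⟨part1 L h, part2 L h, fun Γ _ _ ψ hn => part3 L h Γ ψ hn⟩

end Cfsg.Agent.H82.FXSub
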