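import Cfsg.Agent.H98.GbL

/-! Project GB (S4536): the values of Green's primitive class functions. -/

set_option autoImplicit false

namespace Cfsg.Agent.H82.GbVal

open Polynomial Module Finset Cfsg Cfsg.Agent.H22.Cusp Cfsg.Agent.H98.GB
open scoped MatrixGroups

universe u v

theorem chp_dvd {F : Type u} [Field F] {V : Type v} [AddCommGroup V] [Module F V] [Finite V]
    {g : End F V} {W : Submodule F V} (hg : H22.Cusp.Inv g W) : chp g W ∣ g.charpoly := by
  obtain ⟨W', h⟩ := W.exists_isCompl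
  let e := Submodule.prodEquivOfIsCompl W W' h
  have h1 := charpoly_eq_of_equiv (g := H22.Cusp.tri (g.restrict hg)
    (LinearMap.snd F W W' ∘ₗ e.symm.toLinearMap ∘ₗ g ∘ₗ W'.subtype)
    (LinearMap.fst F W W' ∘ₗ e.symm.toLinearMap ∘ₗ g ∘ₗ W'.subtype)) (g' := g) e (by
      rintro ⟨x, y⟩
      have h1 : ((e.symm (g y)).1 : V) + (e.symm (g y)).2 = g y := e.apply_symm_apply (g y)
      change g x + ((e.symm (g y)).1 : V) + (e.symm (g y)).2 = g (x + y)
      rw [map_add, add_assoc, h1])
  rw [h1, charpoly_tri, chp_eq hg]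
  exact dvd_mul_right _ _

theorem bT_pow {F : Type u} [Field F] {k : Type*} [Field k] [Algebra F k] (T : k → ℂ) {f : F[X]}
    (hf : f.Monic) (j : ℕ) : bT T (f ^ j) = j * bT T f := by
  induction j with
  | zero => simp [bT]
  | succ j ih => rw [pow_succ, bT_mul T _ _ (hf.pow j) hf, ih]; push_cast; ring

/-- the function `DD` at an endomorphism with primary characteristic polynomial -/
theorem DD_primary {F : Type u} [Field F] {k : Type*} [Field k] [Algebra F k]
    {V : Type v} [AddCommGroup V] [Module F V] [Finite V] {g : End F V} {f : F[X]} {j : ℕ}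
    (hf : f.Monic) (hi : Irreducible f) (hj : 0 < j) (hg : g.charpoly = f ^ j) :
    ∃ c : ℂ, ∀ T : k → ℂ, DD (bT T) g = c * bT T g.charpoly := by
  let b0 : F[X] → ℂ := fun h => (h.natDegree : ℂ) / (j * f.natDegree)
  refine ⟨DD b0 g, fun T => ?_⟩
  refine (Dr_unique (bT T) (g := g) (fun W => Dr b0 g W * bT T g.charpoly) (fun W hW => ?_)
    (inv_top g)).symm
  rw [← Finset.sum_mul, sum_Dr b0 hW]
  have h1 := chp_dvd hW
  rw [hg] at h1
  obtain ⟨i, -, h2⟩ := (dvd_prime_pow hi.prime j).1 h1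
  have h3 : chp g W = f ^ i :=
    eq_of_monic_of_associated (by rw [chp_eq hW]; exact LinearMap.charpoly_monic _) (hf.pow i) h2
  have h4 : (f.natDegree : ℂ) ≠ 0 := Nat.cast_ne_zero.2 hi.natDegree_pos.ne'
  have h5 : (j : ℂ) ≠ 0 := Nat.cast_ne_zero.2 hj.ne'
  simp only [b0]
  rw [h3, hg, bT_pow T hf, bT_pow T hf, hf.natDegree_pow]
  push_cast
  field_simp

/-- the roots of a power of an irreducible polynomial -/
theorem aroots_primary {F : Type u} [Field F] [Fintype F] {k : Type*} [Field k] [Algebra F k]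
    [IsAlgClosed k] {f : F[X]} {j m : ℕ} (hf : f.Monic) (hi : Irreducible f) (hm : 0 < m)
    (hd : (f ^ j).natDegree = m) :
    ∃ α : k, α ^ Fintype.card F ^ m = α ∧
      (f ^ j).aroots k = (range m).val.map fun i => α ^ Fintype.card F ^ i := by
  classical
  obtain ⟨p, hp⟩ := CharP.exists F
  haveI : Fact p.Prime := ⟨CharP.char_is_prime F p⟩
  haveI : NeZero m := ⟨hm.ne'⟩
  obtain ⟨K, _, _, _, hK⟩ : ∃ (K : Type) (_ : Field K) (_ : Fintype K) (_ : Algebra F K),
      finrank F K = m :=
    ⟨FiniteField.Extension F p m, inferInstance, Fintype.ofFinite _, inferInstance,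
      FiniteField.finrank_extension F p m⟩
  let ι : K →ₐ[F] k := IsAlgClosed.lift
  rw [hf.natDegree_pow] at hd
  obtain ⟨t, ht⟩ := exists_minpoly_eq (K := K) hf hi (by rw [hK, ← hd]; exact dvd_mul_left _ _)
  have hP : PP F t = f ^ j := by
    rw [PP, ht, hK, ← hd, Nat.mul_div_cancel _ hi.natDegree_pos]
  refine ⟨ι t, ?_, ?_⟩
  · rw [← map_pow, ← hK, ← Module.card_eq_pow_finrank, FiniteField.pow_card]
  · have key : ∀ T : k → ℂ, (((f ^ j).aroots k).map T).sum =
        (((range m).val.map fun i => ι t ^ Fintype.card F ^ i).map T).sum := fun T => by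
      have h1 := bT_PP ι T t
      rw [hP, bT, ← (FiniteField.bijective_frobeniusAlgEquivOfAlgebraic_pow F K).sum_comp] at h1
      rw [h1, Multiset.map_map, ← hK]
      change _ = ∑ i ∈ range (finrank F K), T (ι t ^ Fintype.card F ^ i)
      rw [← Fin.sum_univ_eq_sum_range (fun i => T (ι t ^ Fintype.card F ^ i))]
      refine Finset.sum_congr rfl fun i _ => ?_
      rw [AlgEquiv.coe_pow, FiniteField.coe_frobeniusAlgEquivOfAlgebraic_iterate, map_pow]
    have cnt : ∀ (s : Multiset k) (x : k),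
        (s.map fun y => if x = y then (1 : ℂ) else 0).sum = s.count x := fun s x => by
      induction s using Multiset.induction_on with
      | empty => simp
      | cons a s ih =>
        rw [Multiset.map_cons, Multiset.sum_cons, ih, Multiset.count_cons]
        split_ifs <;> push_cast <;> ring
    refine Multiset.ext.2 fun x => ?_
    have := key fun y => if x = y then (1 : ℂ) else 0
    rw [cnt, cnt] at this
    exact_mod_cast this

theorem teich_pow {p : ℕ} {M : Ideal AlgInt} (hM : IsPModular p M) {x : H19.kk M} {m : ℕ}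
    (hm : ¬ p ∣ m) (hx : x ^ m = 1) (n : ℕ) : teich p M (x ^ n) = teich p M x ^ n := by
  induction n with
  | zero =>
    have := teich_red hM hm (one_pow m)
    rwa [H19.red_one, ← pow_zero x, ← pow_zero (teich p M x)] at this
  | succ n ih =>
    rw [pow_succ, teich_mul hM hm (by rw [← pow_mul, mul_comm, pow_mul, hx, one_pow]) hx, ih,
      pow_succ]

theorem val (hC : COPStmt.{u}) (hB : BRStmt.{u}) (hR : ROOTStmt.{u}) : VALStmt.{u} := by
  intro F _ _ _ C m hm g
  by_cases h0 : ∀ a, C.P a m g = 0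
  · exact Or.inl h0
  right
  push Not at h0
  obtain ⟨a0, h0⟩ := h0
  obtain ⟨f, j, hf, hi, hg⟩ := (hC F 1).2 m (C.P a0 m) g ((hB F C).2.1 a0 m hm)
    ((hB F C).1 a0 m) h0
  letI := C.alg
  haveI := C.ch
  have hd : (f ^ j).natDegree = m := by
    rw [← hg, Matrix.charpoly_natDegree_eq_dim, Fintype.card_fin]
  have hj : 0 < j := Nat.pos_of_ne_zero (by
    rintro rfl
    rw [pow_zero, natDegree_one] at hd
    omega)
  obtain ⟨α, hα, hr⟩ := aroots_primary (k := H19.kk C.M0) hf hi hm hd
  rw [← hg] at hr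
  have hcp : (natRep F m g).charpoly = g.1.charpoly := by
    have : natRep F m g = Matrix.toLin' g.1 := LinearMap.ext fun v => rfl
    rw [this, Matrix.charpoly_toLin']
  have hdet : algebraMap F (H19.kk C.M0) g.1.det =
      α ^ ∑ i ∈ range m, Fintype.card F ^ i := by
    rw [RingHom.map_det, RingHom.mapMatrix_apply, Matrix.det_eq_prod_roots_charpoly,
      Matrix.charpoly_map, ← aroots_def, hr, ← Finset.prod_pow_eq_pow_sum]
    rfl
  have hq : 1 < Fintype.card F ^ m := Nat.one_lt_pow hm.ne' Fintype.one_lt_card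
  have hα0 : α ≠ 0 := by
    rintro rfl
    rw [zero_pow (Finset.sum_pos (fun i _ => pow_pos Fintype.card_pos i)
      (nonempty_range_iff.2 hm.ne')).ne'] at hdet
    exact g.det_ne_zero ((map_eq_zero _).1 hdet)
  have hα1 : α ^ (Fintype.card F ^ m - 1) = 1 := by
    refine mul_right_cancel₀ hα0 ?_
    rw [← pow_succ, Nat.sub_add_cancel hq.le, hα, one_mul]
  have hp0 : ¬ C.p0 ∣ Fintype.card F ^ m - 1 := fun h => by
    obtain ⟨n, -, hn⟩ := FiniteField.card F C.p0
    have h1 : C.p0 ∣ Fintype.card F ^ m :=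
      dvd_pow (by rw [hn]; exact dvd_pow_self _ n.pos.ne') hm.ne'
    exact C.hM0.1.one_lt.ne' (Nat.dvd_one.1 ((Nat.dvd_sub_iff_right hq.le h1).1 h))
  have hT := teich_pow C.hM0 hp0 hα1
  have hroots : C.roots g =
      (range m).val.map fun i => teich C.p0 C.M0 α ^ Fintype.card F ^ i := by
    unfold Ctx.roots
    rw [hr, Multiset.map_map]
    exact Multiset.map_congr rfl fun i _ => hT _
  obtain ⟨c, hc⟩ := DD_primary (k := H19.kk C.M0) hf hi hj (hcp.trans hg)
  refine ⟨c, teich C.p0 C.M0 α, (teich_spec C.hM0 hp0 hα1).1, fun a => ?_, hroots, ?_, ?_⟩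
  · unfold Ctx.P
    rw [hc, hcp, bT, hr, Multiset.map_map]
    congr 1
    refine Finset.sum_congr rfl fun i _ => ?_
    simp only [Function.comp, Ctx.T]
    rw [if_neg (pow_ne_zero _ hα0), hT, ← pow_mul, mul_comm]
  · rw [C.hτ, ← hT, ← hdet]
    rfl
  · rw [(hR F C).2.2.2.2.1 m g, hroots]
    constructor
    · rintro ⟨z, hz, h⟩
      obtain ⟨i, -, rfl⟩ := Multiset.mem_map.1 hz
      exact h.trans (orderOf_pow_dvd _)
    · intro h
      exact ⟨_, Multiset.mem_map.2 ⟨0, mem_range.2 hm, by rw [pow_zero, pow_one]⟩, h⟩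

end Cfsg.Agent.H82.GbVal
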