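import Cfsg.Agent.H50.L81Defs

/-! Project L81: the case `E`. -/

set_option autoImplicit false

namespace Cfsg.Agent.H82.L81CaseE

open Module Cfsg.Agent.H50.SL2S Cfsg.Agent.H50.E83 Cfsg.Agent.H50.L81
open Cfsg.Agent.H42.Fv (Ph sg frV)

theorem nf_sum (L : List ℕ) : (L.map nf).sum = L.count 0 + L.count 8 + L.count 20 + L.count 24 +
    L.count 56 + L.count 60 + L.count 72 + 3 * L.count 80 := by
  induction L with
  | nil => rfl
  | cons a L ih =>
    simp only [List.map_cons, List.sum_cons, ih, List.count_cons, nf, List.mem_cons,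
      List.not_mem_nil, or_false, beq_iff_eq]
    split_ifs <;> omega

theorem act_mul (a b : GK) (v : V) : act (a * b) v = act a (act b v) := by
  rw [map_mul]; rfl

theorem act_cj (g a : GK) (v : V) : act g (act (g⁻¹ * a * g) v) = act a (act g v) := by
  rw [← act_mul, ← act_mul, ← mul_assoc, mul_inv_cancel_left]

theorem act_ii (g : GK) (v : V) : act g (act g⁻¹ v) = v := by
  rw [← act_mul, mul_inv_cancel, map_one]; rfl

theorem act_inj (g : GK) : Function.Injective (act g) := fun a b h => by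
  have h1 := congrArg (act g⁻¹) h
  have h2 := act_ii g⁻¹
  rw [inv_inv] at h2
  rwa [h2, h2] at h1

theorem casee (par : ParStmt) (ser : SerStmt) (kit : KitStmt) (nfx : NfxStmt) (fixne : FixneStmt)
    (frame : FrameStmt) (zel : ZelStmt) (ch : ChStmt) (nrm : NrmStmt) (twe : TweStmt) :
    CaseeStmt := by
  intro H ψ hH hE p hC t hL hc
  obtain ⟨-, -, -, -, -, -, h40, -, -, hw, -⟩ := par.2.2.2 p
  obtain ⟨n, hn, hf, tw⟩ := twe
  obtain ⟨g, hg, ht⟩ := frame (ψ (t0 p)) 40 (zy p) t (ff 4) (by norm_num) h40 hL hc n hn hf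
  obtain ⟨z1, z2⟩ := zel.1 g n hg
  have h1 : rho ψ (-1) = 1 := by
    rw [rho, MonoidHom.comp_apply, MonoidHom.comp_apply, (hE.1 _).2 (Or.inr rfl), map_one, map_one]
  obtain ⟨L, hS⟩ := (ser p V (rho ψ) h1).2.2 ⊥ [] ⊤ Ser.nil bot_le fun _ _ _ => trivial
  rw [List.append_nil] at hS
  have h2 := (nfx p V (rho ψ) h1 ⊤ L hS).2
  rw [top_inf_eq, nf_sum, hC L hS 0 (by norm_num) (by decide), hC L hS 8 (by norm_num) (by decide),
    hC L hS 20 (by norm_num) (by decide), hC L hS 24 (by norm_num) (by decide),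
    hC L hS 56 (by norm_num) (by decide), hC L hS 60 (by norm_num) (by decide),
    hC L hS 72 (by norm_num) (by decide), hC L hS 80 (by norm_num) (by decide)] at h2
  have h3 : finrank K (Fix {t, g⁻¹ * ι (ψ (ww F)) * g}) ≤ 4 := by
    refine le_trans ?_ (h2.trans (by decide))
    refine LinearMap.finrank_le_finrank_of_injective (f := (act g).restrict (p := Fix _)
      (q := Fx (rho ψ) {t0 p, ww F}) fun v hv => ?_) fun a b h =>
        Subtype.ext (act_inj g (congrArg Subtype.val h))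
    rintro _ (rfl | rfl)
    · rw [rho_apply, ← act_cj, ht, mem_Fix.1 hv t (Or.inl rfl)]
    · rw [rho_apply, ← act_cj, mem_Fix.1 hv _ (Or.inr rfl)]
  obtain ⟨g', s1, s2, s3, v, s4, s5⟩ := tw (zy p) t h40 hL (g⁻¹ * ι (ψ (ww F)) * g) (by
    rw [← ht, show g⁻¹ * ι (ψ (ww F)) * g * (g⁻¹ * ι (ψ (t0 p)) * g) * (g⁻¹ * ι (ψ (ww F)) * g)⁻¹ =
      g⁻¹ * (ι (ψ (ww F)) * ι (ψ (t0 p)) * (ι (ψ (ww F)))⁻¹) * g by group, ← map_inv, ← map_inv,
      ← map_mul, ← map_mul, ← map_mul, ← map_mul, hw, map_inv, map_inv]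
    group) (z1 _) h3
  obtain ⟨z, rfl⟩ := z2 g' s1
  obtain ⟨B, hB⟩ := kit.1
  have hz : z ∈ H := (nrm H ψ hH hE).2 (fixne p V (rho ψ) h1 B frV (hB ψ).1 (hB ψ).2 4
    (by norm_num) (by norm_num) hC) z fun u hu => by
      have h4 := congrArg (act g) (s3 (act g⁻¹ u) (mem_Fix.2 (by
        rintro _ (rfl | rfl)
        · refine act_inj g ?_
          rw [← ht, act_cj, act_ii]
          exact hu _ trivial
        · refine act_inj g ?_
          rw [act_cj, act_ii]
          exact hu _ trivial)))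
      rwa [act_cj, act_ii] at h4
  have h5 : Commute z (ψ (t0 p)) := ι_injective (by
    have h6 := s2.eq
    rw [← ht, show g⁻¹ * ι z * g * (g⁻¹ * ι (ψ (t0 p)) * g) = g⁻¹ * (ι z * ι (ψ (t0 p))) * g by group,
      show g⁻¹ * ι (ψ (t0 p)) * g * (g⁻¹ * ι z * g) = g⁻¹ * (ι (ψ (t0 p)) * ι z) * g by group,
      mul_left_inj, mul_right_inj] at h6
    rw [map_mul, map_mul, h6])
  obtain ⟨k, hk⟩ := (ch H ψ hE p z hz h5).1
  have h7 : (g⁻¹ * ι z * g) ^ 2 = t ^ k := by
    have h8 : ∀ (a : GK) (m : ℕ), (g⁻¹ * a * g) ^ m = g⁻¹ * a ^ m * g := fun a m => by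
      simpa using conj_pow (a := g⁻¹) (b := a) (i := m)
    rw [← ht, h8, h8, ← map_pow, hk, map_pow]
  refine s5 ?_
  rw [h7]
  clear hk h7
  induction k with
  | zero => rw [pow_zero, map_one]; rfl
  | succ k ih => rw [pow_succ, act_mul, s4, ih]

end Cfsg.Agent.H82.L81CaseE
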