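import Cfsg.Agent.H56.SpDefs

/-! Project CY, chapter SP: an element of the line group inverting the torus. -/

set_option autoImplicit false

namespace Cfsg.Agent.H82.SpP5

open Subgroup MulAction Cfsg.Agent.H11.Cy Cfsg.Agent.H56.Sp Matrix Polynomial

variable {F : Type} [Field F]

theorem univ2 [Fintype F] (h : Fintype.card F % 2 = 1) {D : F} (hD : D ≠ 0) (c : F) :
    ∃ a b : F, a ^ 2 + D * b ^ 2 = c := by
  obtain ⟨a, b, e⟩ := FiniteField.exists_root_sum_quadratic (f := X ^ 2) (g := C D * X ^ 2 - C c)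
    (by simp) (by
      rw [degree_sub_C (by rw [degree_C_mul_X_pow 2 hD]; decide), degree_C_mul_X_pow 2 hD]; rfl) h
  refine ⟨a, b, ?_⟩
  simp only [eval_pow, eval_X, eval_sub, eval_mul, eval_C] at e
  linear_combination e

theorem anti [Fintype F] (h : Fintype.card F % 2 = 1) {a b c : F} (hD : -a ^ 2 - b * c ≠ 0) :
    ∃ r s t : F, 2 * r * a + s * c + t * b = 0 ∧ r * -r - s * t = 1 := by
  by_cases hb : b = 0
  · by_cases hc : c = 0
    · exact ⟨0, 1, -1, by simp [hb, hc], by simp⟩
    obtain ⟨u, t, e⟩ := univ2 h hD (-c ^ 2)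
    refine ⟨(u + a * t) / c, -(2 * ((u + a * t) / c) * a + t * b) / c, t, ?_, ?_⟩
    · field_simp
      ring
    · field_simp
      linear_combination -e
  obtain ⟨u, s, e⟩ := univ2 h hD (-b ^ 2)
  refine ⟨(u + a * s) / b, s, -(2 * ((u + a * s) / b) * a + s * c) / b, ?_, ?_⟩
  · field_simp
    ring
  · field_simp
    linear_combination -e

theorem ent {M N : Matrix (Fin 2) (Fin 2) F} (h : M = N) :
    M 0 0 = N 0 0 ∧ M 0 1 = N 0 1 ∧ M 1 0 = N 1 0 ∧ M 1 1 = N 1 1 := by simp [h]

theorem cancel {M N N' : Matrix (Fin 2) (Fin 2) F} (h : M.det ≠ 0) (e : N * M = N' * M) : N = N' := by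
  have h1 := congrArg (· * M⁻¹) e
  simpa [Matrix.mul_assoc, Matrix.mul_nonsing_inv M (Ne.isUnit h)] using h1

theorem p5 : P5Stmt := by
  intro G _ _ Ω _ _ p A S p2 _ x y _ lf ⟨F, _, _, e, hF, co⟩ _ g ⟨gN, gK, gn⟩ _ z hz
  obtain ⟨M, hM, hc⟩ := co g gN
  have odd : Fintype.card F % 2 = 1 := hF ▸ (S.pp.eq_two_or_odd).resolve_left p2
  have two : (2 : F) ≠ 0 := Ring.two_ne_zero fun h => by
    have := FiniteField.even_card_of_char_two h
    omega
  have em : ∀ u v, (e (u * v)).1 = (e u).1 * (e v).1 := fun u v => by rw [map_mul]; rfl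
  have e1 : (e 1).1 = !![1, 0; 0, 1] := by rw [map_one, ← one_fin_two]; rfl
  have cj : ∀ f : Fl A x y, ∃ f' : Fl A x y, (f' : G) = g * f * g⁻¹ := fun f =>
    ⟨⟨_, (mem_normalizer_iff.1 gN _).1 f.2⟩, rfl⟩
  have sq : ∀ U : SpecialLinearGroup (Fin 2) F, M * M * U.1 = U.1 * (M * M) := fun U => by
    obtain ⟨f, rfl⟩ := e.surjective U
    obtain ⟨f', h1⟩ := cj f
    have h2 := hc f' f (by
      rw [h1, show g * (g * f * g⁻¹) * g⁻¹ = g * g * f * (g * g)⁻¹ by group, ← gK _ f.2,
        mul_inv_cancel_right])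
    rw [Matrix.mul_assoc, hc f f' h1, ← Matrix.mul_assoc, h2, Matrix.mul_assoc]
  obtain ⟨a, b, c, d, rfl⟩ : ∃ a b c d, M = !![a, b; c, d] := ⟨_, _, _, _, eta_fin_two M⟩
  rw [det_fin_two_of] at hM
  obtain rfl : d = -a := by
    by_contra h
    have h0 : a + d ≠ 0 := fun h1 => h (by linear_combination h1)
    obtain ⟨u1, u2, -, -⟩ := ent (sq ⟨!![1, 1; 0, 1], by simp⟩)
    obtain ⟨v1, -, -, -⟩ := ent (sq ⟨!![1, 0; 1, 1], by simp⟩)
    simp only [mul_fin_two, of_apply, cons_val', cons_val_zero, cons_val_one,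
      cons_val_fin_one] at u1 u2 v1
    obtain rfl : b = 0 := (mul_eq_zero.1 (show b * (a + d) = 0 by
      linear_combination v1)).resolve_right h0
    obtain rfl : c = 0 := (mul_eq_zero.1 (show c * (a + d) = 0 by
      linear_combination -u1)).resolve_right h0
    obtain rfl : a = d := sub_eq_zero.1 ((mul_eq_zero.1 (show (a - d) * (a + d) = 0 by
      linear_combination u2)).resolve_right h0)
    refine gn fun f hf => ?_
    obtain ⟨f', h1⟩ := cj ⟨f, hf⟩
    have h2 := hc _ f' h1
    have h3 : (e ⟨f, hf⟩).1 = (e f').1 := cancel (M := !![a, 0; 0, a]) (by rwa [det_fin_two_of]) (by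
      rw [← h2]
      ext i j
      fin_cases i <;> fin_cases j <;> simp [mul_apply, Fin.sum_univ_two, mul_comm])
    rw [← e.injective (Subtype.ext h3)] at h1
    exact eq_mul_inv_iff_mul_eq.1 h1
  obtain ⟨r, s, t, k1, k2⟩ := anti odd (a := a) (b := b) (c := c) fun h => hM (by
    linear_combination h)
  obtain ⟨f, hf⟩ := e.surjective ⟨!![r, s; t, -r], by rwa [det_fin_two_of]⟩
  have hf' : (e f).1 = !![r, s; t, -r] := congrArg Subtype.val hf
  have f2 : (e (f * f)).1 = !![-1, 0; 0, -1] := by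
    rw [em, hf', mul_fin_two]
    ext i j
    fin_cases i <;> fin_cases j <;> simp <;> first | ring1 | linear_combination -k2
  have ff : (f : G) * f = z := by
    refine lf.uq _ _ ⟨mul_mem f.2 f.2, fun h => ?_, ?_⟩ hz
    · have h1 : f * f = 1 := Subtype.ext h
      rw [h1, e1] at f2
      have h2 : (1 : F) = -1 := (ent f2).1
      exact two (by linear_combination h2)
    · have h1 : f * f * (f * f) = 1 := e.injective (Subtype.ext (by
        rw [em, f2, e1, mul_fin_two]
        simp))
      exact congrArg Subtype.val h1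
  refine ⟨f, f.2, ff, ?_, fun w hw => ?_⟩
  · obtain ⟨f', h1⟩ := cj f
    have h2 : f' = f * (f * f) := e.injective (Subtype.ext (cancel (M := !![a, b; c, -a])
      (by rwa [det_fin_two_of]) (by
        rw [← hc f f' h1, em, f2, hf']
        simp only [mul_fin_two]
        ext i j
        fin_cases i <;> fin_cases j <;> simp <;> first | ring1 | linear_combination k1)))
    rw [h2] at h1
    have h3 : g * f * g⁻¹ = f * z := by rw [← h1, ← ff]; rfl
    have h4 : z * f = f * z := by rw [← ff, mul_assoc]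
    have h5 : g * z * g⁻¹ = z := by
      calc g * z * g⁻¹ = g * f * g⁻¹ * (g * f * g⁻¹) := by rw [← ff]; group
        _ = f * (z * f) * z := by rw [h3]; group
        _ = f * f * (z * z) := by rw [h4]; group
        _ = z := by rw [hz.2.2, mul_one, ff]
    calc f * g * (f : G)⁻¹ = f * (z * z) * g * (f : G)⁻¹ := by rw [hz.2.2, mul_one]
      _ = z * (f * z) * g * (f : G)⁻¹ := by rw [← mul_assoc (f : G) z z, ← h4, mul_assoc z, h4]
      _ = z * g := by rw [← h3]; group
      _ = g * z := by rw [← mul_inv_eq_iff_eq_mul.1 h5]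
  · have h1 := hc ⟨w, hw.1⟩ ⟨w, hw.1⟩ (by
      rw [← mem_centralizer_singleton_iff.1 hw.2, mul_inv_cancel_right])
    have h2 := (e ⟨w, hw.1⟩).2
    suffices h : ⟨w, hw.1⟩ * f * ⟨w, hw.1⟩ = f by
      have h3 : w * f * w = f := congrArg Subtype.val h
      rw [mul_inv_eq_iff_eq_mul, eq_inv_mul_iff_mul_eq, ← mul_assoc, h3]
    refine e.injective (Subtype.ext ?_)
    rw [em, em, hf']
    generalize (e ⟨w, hw.1⟩).1 = W at h1 h2
    obtain ⟨m, n, u, v, rfl⟩ : ∃ a b c d, W = !![a, b; c, d] := ⟨_, _, _, _, eta_fin_two W⟩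
    rw [det_fin_two_of] at h2
    obtain ⟨u1, u2, u3, -⟩ := ent h1
    simp only [mul_fin_two, of_apply, cons_val', cons_val_zero, cons_val_one,
      cons_val_fin_one] at u1 u2 u3
    have E : r * (m - v) + s * u + n * t = 0 := by
      by_contra h
      have b0 : b = 0 := (mul_eq_zero.1 (show b * (r * (m - v) + s * u + n * t) = 0 by
        linear_combination n * k1 - r * u2 + s * u1)).resolve_right h
      have c0 : c = 0 := (mul_eq_zero.1 (show c * (r * (m - v) + s * u + n * t) = 0 by
        linear_combination u * k1 + r * u3 - t * u1)).resolve_right h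
      have a0 : 2 * a = 0 := (mul_eq_zero.1 (show 2 * a * (r * (m - v) + s * u + n * t) = 0 by
        linear_combination (m - v) * k1 - s * u3 + t * u2)).resolve_right h
      rw [(mul_eq_zero.1 a0).resolve_left two, b0, c0] at hM
      simp at hM
    simp only [mul_fin_two]
    ext i j
    fin_cases i <;> fin_cases j <;> simp
    · linear_combination r * h2 + m * E
    · linear_combination s * h2 + n * E
    · linear_combination t * h2 + u * E
    · linear_combination -r * h2 + v * E

end Cfsg.Agent.H82.SpP5
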