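/-
Conjugation lemmas for families controlling Sylow intersections.
-/
import Cfsg.Prelude.Def_SylowChains
import Cfsg.Agent.H98.SylIn

set_option autoImplicit false

namespace Cfsg.Agent.H82

open Cfsg.Agent.H98

variable {G : Type*} [Group G]

theorem mem_subgroupConjRight {g x : G} {X : Subgroup G} :
    x ∈ subgroupConjRight g X ↔ g * x * g⁻¹ ∈ X := by
  unfold subgroupConjRight
  rw [H98.mem_map_conj, inv_inv]

theorem subgroupConjRight_mul (g h : G) (X : Subgroup G) :
    subgroupConjRight (g * h) X = subgroupConjRight h (subgroupConjRight g X) := by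
  ext x
  simp only [mem_subgroupConjRight, mul_inv_rev, mul_assoc]

theorem subgroupConjRight_one (X : Subgroup G) : subgroupConjRight 1 X = X := by
  ext x
  simp [mem_subgroupConjRight]

theorem subgroupConjRight_of_mem {g : G} {X : Subgroup G} (hg : g ∈ X) :
    subgroupConjRight g X = X := map_conj_eq_of_mem (X.inv_mem hg)

theorem subgroupConjRight_inf (g : G) (X Y : Subgroup G) :
    subgroupConjRight g (X ⊓ Y) = subgroupConjRight g X ⊓ subgroupConjRight g Y :=
  map_conj_inf _ _ _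

theorem subgroupConjRight_sylow {p : ℕ} (g : G) (S : Sylow p G) :
    subgroupConjRight g (S : Subgroup G) = ((g⁻¹ • S : Sylow p G) : Subgroup G) := by
  ext x
  rw [mem_subgroupConjRight, Sylow.coe_subgroup_smul, Subgroup.mem_pointwise_smul_iff_inv_smul_mem]
  simp

theorem mem_smul_sylow {p : ℕ} {g x : G} {S : Sylow p G} :
    x ∈ ((g • S : Sylow p G) : Subgroup G) ↔ g⁻¹ * x * g ∈ (S : Subgroup G) := by
  rw [Sylow.coe_subgroup_smul, Subgroup.mem_pointwise_smul_iff_inv_smul_mem]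
  simp

theorem mem_sylowMembers_iff {p : ℕ} {𝓕 : Set (Subgroup G)} {S X : Subgroup G} :
    X ∈ sylowMembers p 𝓕 S ↔ X ∈ 𝓕 ∧ SylIn p (S ⊓ X) X := by
  refine and_congr_right fun _ => ⟨?_, fun h => ?_⟩
  · rintro ⟨P, hP⟩
    rw [← hP]
    exact sylIn_map_sylow P
  · obtain ⟨R, hR⟩ := h.exists_sylow
    exact ⟨R, by rw [hR, Subgroup.subgroupOf_map_subtype, inf_assoc, inf_idem]⟩

theorem sylowMembers_conj {p : ℕ} {𝓕 : Set (Subgroup G)} (h𝓕 : IsNormalSet 𝓕) {S X : Subgroup G}
    (hX : X ∈ sylowMembers p 𝓕 S) (g : G) :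
    subgroupConjRight g X ∈ sylowMembers p 𝓕 (subgroupConjRight g S) := by
  rw [mem_sylowMembers_iff] at hX ⊢
  refine ⟨h𝓕 X hX.1 g, ?_⟩
  rw [← subgroupConjRight_inf]
  exact hX.2.map_conj _

theorem sylowMembers_smul {p : ℕ} {𝓕 : Set (Subgroup G)} (h𝓕 : IsNormalSet 𝓕) {S : Sylow p G}
    {X : Subgroup G} (hX : X ∈ sylowMembers p 𝓕 (S : Subgroup G)) (g : G) :
    subgroupConjRight g X ∈ sylowMembers p 𝓕 ((g⁻¹ • S : Sylow p G) : Subgroup G) := by
  rw [← subgroupConjRight_sylow]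
  exact sylowMembers_conj h𝓕 hX g

end Cfsg.Agent.H82
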