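/-
Control of Sylow intersections as a reflexive-transitive closure; ambient form of regularity.
-/
import Mathlib
import Cfsg.Agent.H82.SylowControl

set_option autoImplicit false

namespace Cfsg.Agent.H82

open Cfsg.Agent.H98

variable {G : Type*} [Group G]

theorem chain_of_reflTransGen {α : Type*} {r : α → α → Prop} {a b : α}
    (h : Relation.ReflTransGen r a b) :
    ∃ (n : ℕ) (c : Fin (n + 1) → α), c 0 = a ∧ c (Fin.last n) = b ∧
      ∀ i : Fin n, r (c i.castSucc) (c i.succ) := by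
  induction h using Relation.ReflTransGen.head_induction_on with
  | refl => exact ⟨0, fun _ => b, rfl, rfl, fun i => i.elim0⟩
  | @head x y hxy _ ih =>
    obtain ⟨n, c, h0, h1, h2⟩ := ih
    refine ⟨n + 1, Fin.cons x c, rfl, ?_, ?_⟩
    · rw [← Fin.succ_last, Fin.cons_succ, h1]
    · intro i
      refine Fin.cases ?_ (fun j => ?_) i
      · simpa [h0] using hxy
      · rw [← Fin.succ_castSucc, Fin.cons_succ, Fin.cons_succ]
        exact h2 j

theorem reflTransGen_of_chain {α : Type*} {r : α → α → Prop} {n : ℕ} (c : Fin (n + 1) → α)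
    (h : ∀ i : Fin n, r (c i.castSucc) (c i.succ)) (i : Fin (n + 1)) :
    Relation.ReflTransGen r (c 0) (c i) := by
  induction i using Fin.induction with
  | zero => exact Relation.ReflTransGen.refl
  | succ i ih => exact ih.tail (h i)

/-- One step of a chain in the definition of control of Sylow intersections. -/
def SylLink (p : ℕ) (𝓕 : Set (Subgroup G)) (D A B : Subgroup G) : Prop :=
  ∃ X ∈ 𝓕, SylIn p (A ⊓ X) X ∧ SylIn p (B ⊓ X) X ∧
    ∃ x ∈ X, subgroupConjRight x B = A ∧ D ≤ B ⊓ X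

theorem SylLink.mono {p : ℕ} {𝓕 𝓕' : Set (Subgroup G)} {D D' A B : Subgroup G}
    (h : SylLink p 𝓕 D A B) (h1 : 𝓕 ⊆ 𝓕') (h2 : D' ≤ D) : SylLink p 𝓕' D' A B := by
  obtain ⟨X, hX, a, b, x, hx, c, d⟩ := h
  exact ⟨X, h1 hX, a, b, x, hx, c, h2.trans d⟩

theorem controlsSylowIntersections_iff {p : ℕ} {𝓕 : Set (Subgroup G)} :
    ControlsSylowIntersections p 𝓕 ↔ ∀ S T : Sylow p G, S ≠ T →
      (S : Subgroup G) ⊓ (T : Subgroup G) ≠ ⊥ →
      Relation.ReflTransGen (fun A B : Sylow p G =>
        SylLink p 𝓕 ((S : Subgroup G) ⊓ (T : Subgroup G)) A B) S T := by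
  refine forall_congr' fun S => forall_congr' fun T => forall_congr' fun _ => forall_congr' fun _ => ?_
  constructor
  · rintro ⟨n, c, X, x, h0, hl, h⟩
    have := reflTransGen_of_chain (r := fun A B : Sylow p G =>
      SylLink p 𝓕 ((S : Subgroup G) ⊓ (T : Subgroup G)) A B) c (fun i => by
        obtain ⟨a1, a2, a3, a4, a5⟩ := h i
        rw [mem_sylowMembers_iff] at a1 a2
        exact ⟨X i, a1.1, a1.2, a2.2, x i, a3, a4, a5⟩) (Fin.last n)
    rwa [h0, hl] at this
  · intro h
    obtain ⟨n, c, h0, hl, h⟩ := chain_of_reflTransGen h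
    choose X hX a1 a2 x hx a4 a5 using h
    exact ⟨n, c, X, x, h0, hl, fun i => ⟨mem_sylowMembers_iff.2 ⟨hX i, a1 i⟩,
      mem_sylowMembers_iff.2 ⟨hX i, a2 i⟩, hx i, a4 i, a5 i⟩⟩

theorem map_subtype_subgroupConjRight {M : Subgroup G} (x : M) (B : Subgroup M) :
    (subgroupConjRight x B).map M.subtype = subgroupConjRight (x : G) (B.map M.subtype) := by
  unfold subgroupConjRight
  rw [Subgroup.map_map, Subgroup.map_map]
  rfl

theorem sylLink_subgroupOf_iff {p : ℕ} {M : Subgroup G} {𝓕 : Set (Subgroup G)}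
    (h𝓕 : ∀ X ∈ 𝓕, X ≤ M) {D A B : Subgroup M} :
    SylLink p ((fun X : Subgroup G => X.subgroupOf M) '' 𝓕) D A B ↔
      SylLink p 𝓕 (D.map M.subtype) (A.map M.subtype) (B.map M.subtype) := by
  have e : ∀ X ∈ 𝓕, ∀ A : Subgroup M,
      (A ⊓ X.subgroupOf M).map M.subtype = A.map M.subtype ⊓ X := by
    intro X hX A
    rw [Subgroup.map_inf _ _ _ M.subtype_injective, Subgroup.map_subgroupOf_eq_of_le (h𝓕 X hX)]
  constructor
  · rintro ⟨_, ⟨X, hX, rfl⟩, a1, a2, x, hx, a4, a5⟩
    refine ⟨X, hX, ?_, ?_, x, hx, ?_, ?_⟩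
    · have := a1.map_of_injective M.subtype M.subtype_injective
      rwa [e X hX, Subgroup.map_subgroupOf_eq_of_le (h𝓕 X hX)] at this
    · have := a2.map_of_injective M.subtype M.subtype_injective
      rwa [e X hX, Subgroup.map_subgroupOf_eq_of_le (h𝓕 X hX)] at this
    · rw [← map_subtype_subgroupConjRight, a4]
    · rw [← e X hX]; exact Subgroup.map_mono a5
  · rintro ⟨X, hX, a1, a2, x, hx, a4, a5⟩
    refine ⟨_, ⟨X, hX, rfl⟩, ?_, ?_, ⟨x, h𝓕 X hX hx⟩, hx, ?_, ?_⟩
    · apply SylIn.of_map_of_injective M.subtype M.subtype_injective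
      rwa [e X hX, Subgroup.map_subgroupOf_eq_of_le (h𝓕 X hX)]
    · apply SylIn.of_map_of_injective M.subtype M.subtype_injective
      rwa [e X hX, Subgroup.map_subgroupOf_eq_of_le (h𝓕 X hX)]
    · apply Subgroup.map_injective M.subtype_injective
      rw [map_subtype_subgroupConjRight]
      exact a4
    · rw [← Subgroup.map_le_map_iff_of_injective M.subtype_injective, e X hX]
      exact a5

theorem SylIn.exists_sylow_map {p : ℕ} {T H : Subgroup G} (h : SylIn p T H) :
    ∃ R : Sylow p H, (R : Subgroup H).map H.subtype = T := by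
  obtain ⟨R, hR⟩ := h.exists_sylow
  exact ⟨R, by rw [hR, Subgroup.map_subgroupOf_eq_of_le h.le]⟩

theorem controls_subgroupOf_iff {p : ℕ} {M : Subgroup G} {𝓕 : Set (Subgroup G)}
    (h𝓕 : ∀ X ∈ 𝓕, X ≤ M) :
    ControlsSylowIntersections p ((fun X : Subgroup G => X.subgroupOf M) '' 𝓕) ↔
      ∀ A B : Subgroup G, SylIn p A M → SylIn p B M → A ≠ B → A ⊓ B ≠ ⊥ →
        Relation.ReflTransGen (fun U V : Subgroup G =>
          SylIn p U M ∧ SylIn p V M ∧ SylLink p 𝓕 (A ⊓ B) U V) A B := by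
  rw [controlsSylowIntersections_iff]
  constructor
  · intro h A B hA hB hne hb
    obtain ⟨S, rfl⟩ := SylIn.exists_sylow_map hA
    obtain ⟨T, rfl⟩ := SylIn.exists_sylow_map hB
    have h1 := h S T (fun he => hne (by rw [he])) (fun he => hb (by
      rw [← Subgroup.map_inf _ _ _ M.subtype_injective, he, Subgroup.map_bot]))
    rw [← Subgroup.map_inf _ _ _ M.subtype_injective]
    generalize (S : Subgroup M) ⊓ (T : Subgroup M) = D at h1 ⊢
    clear hne hb hB
    induction h1 with
    | refl => exact Relation.ReflTransGen.refl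
    | tail _ h2 ih =>
      exact ih.tail ⟨sylIn_map_sylow _, sylIn_map_sylow _, (sylLink_subgroupOf_iff h𝓕).1 h2⟩
  · intro h S T hne hb
    have h1 := h _ _ (sylIn_map_sylow S) (sylIn_map_sylow T)
      (fun he => hne (Sylow.ext (Subgroup.map_injective M.subtype_injective he))) (by
        rw [← Subgroup.map_inf _ _ _ M.subtype_injective, Ne,
          Subgroup.map_eq_bot_iff_of_injective _ M.subtype_injective]
        exact hb)
    rw [← Subgroup.map_inf _ _ _ M.subtype_injective] at h1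
    generalize (S : Subgroup M) ⊓ (T : Subgroup M) = D at h1 ⊢
    clear hne hb
    generalize hV : (T : Subgroup M).map M.subtype = V at h1
    induction h1 generalizing T with
    | refl =>
      rw [Sylow.ext (Subgroup.map_injective M.subtype_injective hV)]
    | tail _ h2 ih =>
      obtain ⟨R, rfl⟩ := SylIn.exists_sylow_map h2.1
      subst hV
      exact (ih R rfl).tail ((sylLink_subgroupOf_iff h𝓕).2 h2.2.2)

theorem mem_functorFamily_iff {p : ℕ} {f : Subgroup G → Set (Subgroup G)} {M X : Subgroup G} :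
    X ∈ functorFamily p f M ↔
      ∃ P, SylIn p P M ∧ ∃ F ∈ f P, X = M ⊓ Subgroup.normalizer (F : Set G) := by
  constructor
  · rintro ⟨P, F, hF, rfl⟩
    exact ⟨_, sylIn_map_sylow P, F, hF, rfl⟩
  · rintro ⟨P, hP, F, hF, rfl⟩
    obtain ⟨R, rfl⟩ := SylIn.exists_sylow_map hP
    exact ⟨R, F, hF, rfl⟩

theorem isFunctorRegular_iff {p : ℕ} {f : Subgroup G → Set (Subgroup G)} {M : Subgroup G} :
    IsFunctorRegular p f M ↔
      ∀ A B : Subgroup G, SylIn p A M → SylIn p B M → A ≠ B → A ⊓ B ≠ ⊥ →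
        Relation.ReflTransGen (fun U V : Subgroup G =>
          SylIn p U M ∧ SylIn p V M ∧ SylLink p (functorFamily p f M) (A ⊓ B) U V) A B :=
  controls_subgroupOf_iff (by
    rintro _ ⟨P, F, -, rfl⟩
    exact inf_le_left)

theorem SylLink.conj {p : ℕ} {𝓕 𝓕' : Set (Subgroup G)} {D A B : Subgroup G}
    (h : SylLink p 𝓕 D A B) (g : G) (h' : ∀ X ∈ 𝓕, X.map (MulAut.conj g).toMonoidHom ∈ 𝓕') :
    SylLink p 𝓕' (D.map (MulAut.conj g).toMonoidHom) (A.map (MulAut.conj g).toMonoidHom)
      (B.map (MulAut.conj g).toMonoidHom) := by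
  obtain ⟨X, hX, a1, a2, x, hx, a4, a5⟩ := h
  refine ⟨_, h' X hX, ?_, ?_, g * x * g⁻¹, conj_mem_map_conj hx, ?_, ?_⟩
  · rw [← map_conj_inf]; exact a1.map_conj g
  · rw [← map_conj_inf]; exact a2.map_conj g
  · rw [← a4]
    unfold subgroupConjRight
    rw [map_conj_map_conj, map_conj_map_conj]
    congr 3
    group
  · rw [← map_conj_inf]; exact Subgroup.map_mono a5

theorem functorFamily_conj {p : ℕ} {f : Subgroup G → Set (Subgroup G)} (hf : IsNormalizerFunctor p f)
    {M X : Subgroup G} (hX : X ∈ functorFamily p f M) (g : G) :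
    X.map (MulAut.conj g).toMonoidHom ∈ functorFamily p f (M.map (MulAut.conj g).toMonoidHom) := by
  rw [mem_functorFamily_iff] at hX ⊢
  obtain ⟨P, hP, F, hF, rfl⟩ := hX
  refine ⟨_, hP.map_conj g, F.map (MulAut.conj g).toMonoidHom, ?_, ?_⟩
  · rw [(hf P hP.isPGroup).2 g]
    exact ⟨F, hF, rfl⟩
  · rw [map_conj_inf, map_conj_normalizer]

theorem isFunctorRegular_conj {p : ℕ} {f : Subgroup G → Set (Subgroup G)}
    (hf : IsNormalizerFunctor p f) {M : Subgroup G} (h : IsFunctorRegular p f M) (g : G) :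
    IsFunctorRegular p f (M.map (MulAut.conj g).toMonoidHom) := by
  rw [isFunctorRegular_iff] at h ⊢
  intro A B hA hB hne hb
  have hA' := hA.map_conj g⁻¹
  have hB' := hB.map_conj g⁻¹
  rw [map_conj_inv_map_conj] at hA' hB'
  have h1 := h _ _ hA' hB' (fun he => hne (Subgroup.map_injective (MulAut.conj g⁻¹).injective he))
    (by
      rw [← map_conj_inf, Ne, Subgroup.map_eq_bot_iff_of_injective _ (MulAut.conj g⁻¹).injective]
      exact hb)
  rw [← map_conj_inf] at h1
  have key : ∀ D U V : Subgroup G, Relation.ReflTransGen (fun U V : Subgroup G =>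
      SylIn p U M ∧ SylIn p V M ∧ SylLink p (functorFamily p f M) D U V) U V →
      Relation.ReflTransGen (fun U V : Subgroup G =>
        SylIn p U (M.map (MulAut.conj g).toMonoidHom) ∧ SylIn p V (M.map (MulAut.conj g).toMonoidHom) ∧
          SylLink p (functorFamily p f (M.map (MulAut.conj g).toMonoidHom))
            (D.map (MulAut.conj g).toMonoidHom) U V)
        (U.map (MulAut.conj g).toMonoidHom) (V.map (MulAut.conj g).toMonoidHom) := by
    intro D U V h
    induction h with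
    | refl => exact Relation.ReflTransGen.refl
    | tail _ h2 ih =>
      exact ih.tail ⟨h2.1.map_conj g, h2.2.1.map_conj g,
        h2.2.2.conj g fun X hX => functorFamily_conj hf hX g⟩
  have h2 := key _ _ _ h1
  rwa [map_conj_map_conj_inv, map_conj_map_conj_inv, map_conj_map_conj_inv] at h2

/-- In a link of the functor family of `M`, both ends lie in the linking subgroup. -/
theorem le_of_sylIn_functorFamily [Finite G] {p : ℕ} [Fact p.Prime]
    {f : Subgroup G → Set (Subgroup G)} (hf : IsNormalizerFunctor p f) {M P F A : Subgroup G}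
    (hP : SylIn p P M) (hF : F ∈ f P) (hA : SylIn p A M)
    (h : SylIn p (A ⊓ (M ⊓ Subgroup.normalizer (F : Set G))) (M ⊓ Subgroup.normalizer (F : Set G))) :
    A ≤ Subgroup.normalizer (F : Set G) := by
  have h1 : P ≤ M ⊓ Subgroup.normalizer (F : Set G) :=
    le_inf hP.le (Subgroup.le_normalizer.trans ((hf P hP.isPGroup).1 F hF).2)
  have h2 := h.card_le h1 hP.isPGroup
  rw [hP.card_eq hA] at h2
  have h3 := Subgroup.eq_of_le_of_card_ge inf_le_left h2
  rw [← h3]
  exact inf_le_right.trans inf_le_right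

/-- If `M` contains a Sylow subgroup of `G`, links in `M` give links in `G`. -/
theorem SylLink.functorFamily_top [Finite G] {p : ℕ} [Fact p.Prime]
    {f : Subgroup G → Set (Subgroup G)} (hf : IsNormalizerFunctor p f) {M D A B : Subgroup G}
    (hM : ∀ U, SylIn p U M → SylIn p U ⊤) (hA : SylIn p A M) (hB : SylIn p B M)
    (h : SylLink p (functorFamily p f M) D A B) : SylLink p (functorFamily p f ⊤) D A B := by
  obtain ⟨X, hX, a1, a2, x, hx, a4, a5⟩ := h
  obtain ⟨P, hP, F, hF, rfl⟩ := mem_functorFamily_iff.1 hX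
  have b1 := le_of_sylIn_functorFamily hf hP hF hA a1
  have b2 := le_of_sylIn_functorFamily hf hP hF hB a2
  refine ⟨_, mem_functorFamily_iff.2 ⟨P, hM P hP, F, hF, rfl⟩, ?_, ?_, x, ⟨trivial, hx.2⟩, a4, ?_⟩
  · rw [top_inf_eq, inf_eq_left.2 b1]
    exact (hM A hA).mono b1 le_top
  · rw [top_inf_eq, inf_eq_left.2 b2]
    exact (hM B hB).mono b2 le_top
  · exact a5.trans (inf_le_inf le_rfl (inf_le_inf le_top le_rfl))

theorem sylIn_top_of_sylIn_of_le [Finite G] {p : ℕ} [Fact p.Prime] {M S U : Subgroup G}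
    (hS : SylIn p S ⊤) (hSM : S ≤ M) (hU : SylIn p U M) : SylIn p U ⊤ :=
  hS.of_card_le le_top hU.isPGroup (hU.card_le hSM hS.isPGroup)

end Cfsg.Agent.H82
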